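import Cfsg.Agent.LieClassical.OrthTrans

/-!
# S5719, EV9: descent (helper999, for helper829)
-/

set_option autoImplicit false
set_option linter.unusedSectionVars false

namespace Cfsg.Agent.H999.IFE

open QuadraticMap Module Subgroup Cfsg Cfsg.Agent.LieClassical.OrthCore Cfsg.Agent.LieClassical.OrthTrans

section

variable {F V : Type*} [Field F] [AddCommGroup V] [Module F V] {Q : QuadraticForm F V}

/-- dual vectors of an independent family -/
theorem exists_dualv (hQ : Nondeg Q) {s : ℕ} {z : Fin s → V} (hz : LinearIndependent F z) (j : Fin s) :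
    ∃ e : V, ∀ i, polar Q (z i) e = if i = j then 1 else 0 := by
  classical
  let L : V →ₗ[F] (Fin s → F) := LinearMap.pi fun i => polarBilin Q (z i)
  have hL : LinearMap.range L = ⊤ := by
    by_contra hne
    obtain ⟨f, hf0, hf⟩ := Submodule.exists_le_ker_of_lt_top _ (lt_top_iff_ne_top.2 hne)
    apply hf0
    have h1 : ∀ v : V, ∑ i, f (Pi.single i 1) * polar Q (z i) v = 0 := by
      intro v
      have h2 : f (L v) = 0 := hf ⟨v, rfl⟩
      have h3 : L v = ∑ i, polar Q (z i) v • (Pi.single i (1 : F) : Fin s → F) := by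
        rw [← Finset.univ_sum_single (L v)]
        refine Finset.sum_congr rfl fun i _ => ?_
        rw [← Pi.single_smul', smul_eq_mul, mul_one]
        rfl
      rw [h3, map_sum] at h2
      rw [← h2]
      refine Finset.sum_congr rfl fun i _ => ?_
      rw [map_smul, smul_eq_mul, mul_comm]
    have h4 : ∑ i, f (Pi.single i 1) • z i = 0 := by
      apply hQ
      intro y
      have h5 : polar Q (∑ i, f (Pi.single i 1) • z i) y = ∑ i, f (Pi.single i 1) * polar Q (z i) y := by
        have h6 : polar Q (∑ i, f (Pi.single i 1) • z i) y = polarBilin Q (∑ i, f (Pi.single i 1) • z i) y := rfl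
        rw [h6, map_sum, LinearMap.sum_apply]
        refine Finset.sum_congr rfl fun i _ => ?_
        rw [map_smul, LinearMap.smul_apply, smul_eq_mul]
        rfl
      rw [h5]
      exact h1 y
    have h5 := Fintype.linearIndependent_iff.1 hz _ h4
    ext i
    simpa using h5 i
  obtain ⟨e, he⟩ : (Pi.single j 1 : Fin s → F) ∈ LinearMap.range L := by rw [hL]; trivial
  refine ⟨e, fun i => ?_⟩
  have := congrFun he i
  rw [Pi.single_apply] at this
  exact this

/-- the group of elements of `E Q` commuting with `t`, trivial on `Z` and on `Z^⊥/Z` -/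
def BZ (t : ↥(E Q)) (Z : Submodule F V) : Subgroup ↥(E Q) where
  carrier := {g | g * t = t * g ∧ (∀ z ∈ Z, (g : V ≃ₗ[F] V) z = z) ∧
    ∀ v, (∀ z ∈ Z, polar Q z v = 0) → (g : V ≃ₗ[F] V) v - v ∈ Z}
  one_mem' := ⟨by rw [one_mul, mul_one], fun _ _ => rfl, fun v _ => by
    have : ((1 : ↥(E Q)) : V ≃ₗ[F] V) v - v = 0 := sub_self v
    rw [this]; exact Z.zero_mem⟩
  mul_mem' := by
    rintro g h ⟨h1, h2, h3⟩ ⟨h4, h5, h6⟩
    refine ⟨by rw [mul_assoc, h4, ← mul_assoc, h1, mul_assoc], ?_, ?_⟩
    · intro z hz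
      change (g : V ≃ₗ[F] V) ((h : V ≃ₗ[F] V) z) = z
      rw [h5 z hz, h2 z hz]
    · intro v hv
      change (g : V ≃ₗ[F] V) ((h : V ≃ₗ[F] V) v) - v ∈ Z
      have h7 : (g : V ≃ₗ[F] V) ((h : V ≃ₗ[F] V) v) - v =
          ((g : V ≃ₗ[F] V) v - v) + (g : V ≃ₗ[F] V) ((h : V ≃ₗ[F] V) v - v) := by
        rw [map_sub]; abel
      rw [h7, h2 _ (h6 v hv)]
      exact Z.add_mem (h3 v hv) (h6 v hv)
  inv_mem' := by
    rintro g ⟨h1, h2, h3⟩
    have hi : ∀ v, ((g⁻¹ : ↥(E Q)) : V ≃ₗ[F] V) ((g : V ≃ₗ[F] V) v) = v := fun v =>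
      LinearEquiv.symm_apply_apply (g : V ≃ₗ[F] V) v
    refine ⟨?_, ?_, ?_⟩
    · rw [inv_mul_eq_iff_eq_mul, ← mul_assoc, h1, mul_assoc, mul_inv_cancel, mul_one]
    · intro z hz
      nth_rewrite 1 [← h2 z hz]
      exact hi z
    · intro v hv
      have h4 : ((g⁻¹ : ↥(E Q)) : V ≃ₗ[F] V) ((g : V ≃ₗ[F] V) v - v) = (g : V ≃ₗ[F] V) v - v := by
        have h5 := hi ((g : V ≃ₗ[F] V) v - v)
        rwa [h2 _ (h3 v hv)] at h5
      rw [map_sub, hi] at h4
      have h5 : ((g⁻¹ : ↥(E Q)) : V ≃ₗ[F] V) v - v = -((g : V ≃ₗ[F] V) v - v) := by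
        rw [← h4]; abel
      rw [h5]
      exact Z.neg_mem (h3 v hv)

theorem polar_gv {t : ↥(E Q)} {Z : Submodule F V} {g : ↥(E Q)} (hg : g ∈ BZ t Z) {z : V} (hz : z ∈ Z) (v : V) :
    polar Q z ((g : V ≃ₗ[F] V) v) = polar Q z v := by
  have h1 := polar_map (E_le_O g.2) z v
  rwa [hg.2.1 z hz] at h1

theorem sum_mem_of {Z : Submodule F V} {s : ℕ} (c : Fin s → F) {z : Fin s → V} (hz : ∀ i, z i ∈ Z) (I : Finset (Fin s)) :
    ∑ i ∈ I, c i • z i ∈ Z := Z.sum_mem fun i _ => Z.smul_mem _ (hz i)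

/-- products of Siegel elements -/
theorem exists_prod (t : ↥(E Q)) {Z : Submodule F V} (hZ : ∀ z ∈ Z, Q z = 0) (hZt : ∀ z ∈ Z, (t : V ≃ₗ[F] V) z = z)
    {s : ℕ} {z : Fin s → V} (hz : ∀ i, z i ∈ Z) (x : Fin s → V) (hx : ∀ i, ∀ z ∈ Z, polar Q z (x i) = 0)
    (hxt : ∀ i, (t : V ≃ₗ[F] V) (x i) = x i) (I : Finset (Fin s)) :
    ∃ g ∈ BZ t Z, ∀ v, (g : V ≃ₗ[F] V) v - (v + ∑ i ∈ I, polar Q (z i) v • x i) ∈ Z := by
  classical
  have hZZ : ∀ z ∈ Z, ∀ z' ∈ Z, polar Q z z' = 0 := by
    intro a ha b hb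
    have := Q_add (Q := Q) a b
    rw [hZ _ (Z.add_mem ha hb), hZ a ha, hZ b hb] at this
    simpa using this.symm
  induction I using Finset.induction_on with
  | empty =>
    refine ⟨1, one_mem _, fun v => ?_⟩
    rw [Finset.sum_empty, add_zero]
    have : ((1 : ↥(E Q)) : V ≃ₗ[F] V) v - v = 0 := sub_self v
    rw [this]; exact Z.zero_mem
  | insert a I ha ih =>
    obtain ⟨g, hg, h⟩ := ih
    let r : ↥(E Q) := ⟨siegel Q (z a) (x a) (hZ _ (hz a)) (hx a _ (hz a)), siegel_mem_E _ _⟩
    have hr : ∀ v, (r : V ≃ₗ[F] V) v = v + polar Q (z a) v • x a - polar Q (x a) v • z a -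
        (Q (x a) * polar Q (z a) v) • z a := fun v => siegel_apply (hZ _ (hz a)) (hx a _ (hz a)) v
    have hrB : r ∈ BZ t Z := by
      refine ⟨?_, ?_, ?_⟩
      · apply Subtype.ext
        change (r : V ≃ₗ[F] V) * (t : V ≃ₗ[F] V) = (t : V ≃ₗ[F] V) * (r : V ≃ₗ[F] V)
        have h1 := siegel_conj (E_le_O t.2) (hZ _ (hz a)) (hx a _ (hz a)) (by rw [hZt _ (hz a)]; exact hZ _ (hz a))
          (by rw [hZt _ (hz a), hxt]; exact hx a _ (hz a))
        rw [mul_inv_eq_iff_eq_mul] at h1
        rw [h1]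
        congr 1
        apply LinearEquiv.ext
        intro v
        rw [siegel_apply, siegel_apply, hZt _ (hz a), hxt]
      · intro w hw
        rw [hr, hZZ _ (hz a) _ hw, polar_comm Q (x a) w, hx a w hw]
        simp
      · intro v hv
        rw [hr, hv _ (hz a)]
        have h1 : v + (0 : F) • x a - polar Q (x a) v • z a - (Q (x a) * 0) • z a - v =
            -(polar Q (x a) v • z a) := by
          rw [mul_zero, zero_smul, zero_smul]; abel
        rw [h1]
        exact Z.neg_mem (Z.smul_mem _ (hz a))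
    refine ⟨r * g, mul_mem hrB hg, fun v => ?_⟩
    change (r : V ≃ₗ[F] V) ((g : V ≃ₗ[F] V) v) - _ ∈ Z
    rw [hr, polar_gv hg (hz a), Finset.sum_insert ha]
    have h1 : (g : V ≃ₗ[F] V) v + polar Q (z a) v • x a - polar Q (x a) ((g : V ≃ₗ[F] V) v) • z a -
        (Q (x a) * polar Q (z a) v) • z a - (v + (polar Q (z a) v • x a + ∑ i ∈ I, polar Q (z i) v • x i)) =
        ((g : V ≃ₗ[F] V) v - (v + ∑ i ∈ I, polar Q (z i) v • x i)) -
          (polar Q (x a) ((g : V ≃ₗ[F] V) v) + Q (x a) * polar Q (z a) v) • z a := by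
      rw [add_smul]; abel
    rw [h1]
    exact Z.sub_mem (h v) (Z.smul_mem _ (hz a))

end

/-- EV9. descent: an involution of rank `k ≥ 5` centralises a large group of elements of small rank. -/
theorem exists_desc {F V : Type*} [Field F] [Fintype F] [CharP F 2] [AddCommGroup V] [Module F V] [Fintype V]
    {Q : QuadraticForm F V} (hQ : Nondeg Q) {m k s : ℕ} (hm : finrank F V = m) {t : ↥(E Q)}
    (ht : ∀ v, (t : V ≃ₗ[F] V) ((t : V ≃ₗ[F] V) v) = v)
    (hk : finrank F (LinearMap.range ((t : V ≃ₗ[F] V).toLinearMap - LinearMap.id)) = k) (hs : s < k) :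
    ∃ B : Subgroup ↥(E Q), B ≤ centralizer ({t} : Set ↥(E Q)) ∧ Fintype.card F ^ (s * (m - k - s)) ≤ Nat.card B ∧
      ∀ g ∈ B, (∀ v, (g : V ≃ₗ[F] V) ((g : V ≃ₗ[F] V) ((g : V ≃ₗ[F] V) ((g : V ≃ₗ[F] V) v))) = v) ∧
        finrank F (LinearMap.range ((g : V ≃ₗ[F] V).toLinearMap - LinearMap.id)) ≤ 2 * s := by
  classical
  have : FiniteDimensional F V := inferInstance
  have : Finite (V ≃ₗ[F] V) := Finite.of_injective (fun g => (g : V → V)) DFunLike.coe_injective
  have h2 : (2 : F) = 0 := CharTwo.two_eq_zero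
  have h2v : ∀ v : V, v + v = 0 := by
    intro v
    rw [← two_smul F v, h2, zero_smul]
  have hneg : ∀ v : V, -v = v := fun v => neg_eq_of_add_eq_zero_left (h2v v)
  set f : V →ₗ[F] V := (t : V ≃ₗ[F] V).toLinearMap - LinearMap.id with hf_def
  have hf : ∀ v, f v = (t : V ≃ₗ[F] V) v - v := fun v => rfl
  have htO := E_le_O t.2
  have hRt : ∀ r ∈ LinearMap.range f, (t : V ≃ₗ[F] V) r = r := by
    rintro _ ⟨v, rfl⟩
    rw [hf, map_sub, ht, ← neg_sub, hneg]
  have hC : ∀ x, (t : V ≃ₗ[F] V) x = x → ∀ r ∈ LinearMap.range f, polar Q r x = 0 := by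
    rintro x hx _ ⟨v, rfl⟩
    rw [hf, polar_sub_left]
    have h3 := polar_map htO v x
    rw [hx] at h3
    rw [h3, sub_self]
  have hRR : ∀ a ∈ LinearMap.range f, ∀ b ∈ LinearMap.range f, polar Q a b = 0 := fun a ha b hb =>
    hC b (hRt b hb) a ha
  -- the singular part of `R`
  let lam : LinearMap.range f →ₗ[F] F :=
    { toFun := fun r => (frobeniusEquiv F 2).symm (Q (r : V))
      map_add' := by
        intro a b
        rw [← map_add]
        congr 1
        change Q ((a : V) + (b : V)) = _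
        rw [Q_add, hRR a a.2 b b.2, add_zero]
      map_smul' := by
        intro c a
        change (frobeniusEquiv F 2).symm (Q (c • (a : V))) = c • (frobeniusEquiv F 2).symm (Q (a : V))
        rw [QuadraticMap.map_smul, smul_eq_mul, smul_eq_mul, map_mul]
        congr 1
        rw [RingEquiv.symm_apply_eq, frobeniusEquiv_apply, frobenius_def, pow_two] }
  have hlam : k - 1 ≤ finrank F (LinearMap.ker lam) := by
    have h3 := LinearMap.finrank_range_add_finrank_ker lam
    have h4 : finrank F (LinearMap.range lam) ≤ 1 := by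
      have := Submodule.finrank_le (LinearMap.range lam)
      rwa [finrank_self] at this
    omega
  obtain ⟨z0, hz0⟩ := exists_linearIndependent_of_le_finrank (by omega : s ≤ finrank F (LinearMap.ker lam))
  let z : Fin s → V := fun i => ((z0 i : LinearMap.range f) : V)
  have hzi : LinearIndependent F z := by
    have h3 : LinearIndependent F (fun i => (((LinearMap.range f).subtype.comp (LinearMap.ker lam).subtype) (z0 i))) :=
      hz0.map' _ (by
        rw [LinearMap.ker_eq_bot]
        exact (LinearMap.range f).injective_subtype.comp (LinearMap.ker lam).injective_subtype)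
    exact h3
  let Z : Submodule F V := Submodule.span F (Set.range z)
  have hzZ : ∀ i, z i ∈ Z := fun i => Submodule.subset_span ⟨i, rfl⟩
  have hZle : Z ≤ ((LinearMap.ker lam).map (LinearMap.range f).subtype) := by
    rw [Submodule.span_le]
    rintro _ ⟨i, rfl⟩
    exact ⟨z0 i, (z0 i).2, rfl⟩
  have hZR : ∀ w ∈ Z, w ∈ LinearMap.range f := by
    intro w hw
    obtain ⟨r, -, rfl⟩ := hZle hw
    exact r.2
  have hZs : ∀ w ∈ Z, Q w = 0 := by
    intro w hw
    obtain ⟨r, hr, rfl⟩ := hZle hw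
    have h3 : (frobeniusEquiv F 2).symm (Q (r : V)) = 0 := hr
    rwa [EmbeddingLike.map_eq_zero_iff] at h3
  have hZt : ∀ w ∈ Z, (t : V ≃ₗ[F] V) w = w := fun w hw => hRt w (hZR w hw)
  have hZd : finrank F Z = s := by
    rw [finrank_span_eq_card hzi, Fintype.card_fin]
  -- the complement of `Z` in `C_V(t)`
  obtain ⟨K', hK'⟩ := Submodule.exists_isCompl Z
  let C : Submodule F V := LinearMap.ker f
  have hCd : finrank F C = m - k := by
    have h3 := LinearMap.finrank_range_add_finrank_ker f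
    rw [hm] at h3
    change finrank F (LinearMap.ker f) = m - k
    omega
  have hCt : ∀ x ∈ C, (t : V ≃ₗ[F] V) x = x := fun x hx => sub_eq_zero.1 (LinearMap.mem_ker.1 hx)
  have hZC : Z ≤ C := fun w hw => LinearMap.mem_ker.2 (sub_eq_zero.2 (hZt w hw))
  let K : Submodule F V := K' ⊓ C
  have hKZ : K ⊓ Z = ⊥ := by
    rw [eq_bot_iff]
    intro w hw
    have h3 : w ∈ Z ⊓ K' := ⟨hw.2, hw.1.1⟩
    rwa [hK'.inf_eq_bot] at h3
  have hKd : finrank F K = m - k - s := by
    have h3 := Submodule.finrank_sup_add_finrank_inf_eq K Z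
    have h4 : K ⊔ Z = C := by
      change (K' ⊓ C) ⊔ Z = C
      rw [sup_comm, ← sup_inf_assoc_of_le _ hZC, hK'.sup_eq_top, top_inf_eq]
    rw [h4, hKZ, finrank_bot, hCd, hZd] at h3
    omega
  refine ⟨BZ t Z, ?_, ?_, ?_⟩
  · intro g hg
    rw [mem_centralizer_iff]
    rintro _ rfl
    exact hg.1.symm
  · -- the count
    choose e he using fun j => exists_dualv hQ hzi j
    have hprod : ∀ x : Fin s → K, ∃ g : BZ t Z, ∀ v, ((g : ↥(E Q)) : V ≃ₗ[F] V) v -
        (v + ∑ i, polar Q (z i) v • (x i : V)) ∈ Z := by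
      intro x
      obtain ⟨g, hg, h⟩ := exists_prod t hZs hZt hzZ (fun i => (x i : V))
        (fun i w hw => hC _ (hCt _ (x i).2.2) w (hZR w hw)) (fun i => hCt _ (x i).2.2) Finset.univ
      exact ⟨⟨g, hg⟩, h⟩
    choose G hG using hprod
    have hinj : Function.Injective G := by
      intro x y hxy
      funext j
      have h3 := hG x (e j)
      have h4 := hG y (e j)
      rw [hxy] at h3
      have h5 := Z.sub_mem h4 h3
      have h6 : ∀ w : Fin s → K, ∑ i, polar Q (z i) (e j) • (w i : V) = (w j : V) := by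
        intro w
        rw [Finset.sum_eq_single j]
        · rw [he, if_pos rfl, one_smul]
        · intro i _ hij
          rw [he, if_neg hij, zero_smul]
        · intro h; exact absurd (Finset.mem_univ _) h
      rw [h6, h6] at h5
      have h7 : ((x j : V) - (y j : V)) ∈ Z := by
        have : (((G y : ↥(E Q)) : V ≃ₗ[F] V) (e j) - (e j + (y j : V))) -
            (((G y : ↥(E Q)) : V ≃ₗ[F] V) (e j) - (e j + (x j : V))) = (x j : V) - (y j : V) := by abel
        rwa [this] at h5
      have h8 : ((x j : V) - (y j : V)) ∈ K ⊓ Z := ⟨K.sub_mem (x j).2 (y j).2, h7⟩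
      rw [hKZ, Submodule.mem_bot, sub_eq_zero] at h8
      exact Subtype.ext h8
    have h3 := Nat.card_le_card_of_injective G hinj
    refine le_trans (le_of_eq ?_) h3
    rw [Nat.card_fun, Nat.card_eq_fintype_card (α := Fin s), Fintype.card_fin, Module.natCard_eq_pow_finrank (K := F),
      Nat.card_eq_fintype_card, hKd, ← pow_mul, mul_comm]
  · intro g hg
    have hgp : ∀ v, ∀ w ∈ Z, polar Q w ((g : V ≃ₗ[F] V) v - v) = 0 := by
      intro v w hw
      rw [polar_sub_right, polar_gv hg hw, sub_self]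
    refine ⟨?_, ?_⟩
    · -- `g² v = v + b`, `b ∈ Z`
      have h3 : ∀ v, ∃ b ∈ Z, (g : V ≃ₗ[F] V) ((g : V ≃ₗ[F] V) v) = v + b := by
        intro v
        set a := (g : V ≃ₗ[F] V) v - v with ha
        refine ⟨(g : V ≃ₗ[F] V) a - a, hg.2.2 a (hgp v), ?_⟩
        have h4 : (g : V ≃ₗ[F] V) v = v + a := by rw [ha]; abel
        rw [h4, map_add, h4]
        have h5 : v + ((g : V ≃ₗ[F] V) a - a) = v + ((g : V ≃ₗ[F] V) a + a) := by rw [sub_eq_add_neg, hneg]
        rw [h5]; abel
      intro v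
      obtain ⟨b, hb, h4⟩ := h3 v
      rw [h4, map_add, map_add, h4, hg.2.1 b hb, hg.2.1 b hb, add_assoc, h2v, add_zero]
    · -- rank
      set φ : V →ₗ[F] V := (g : V ≃ₗ[F] V).toLinearMap - LinearMap.id with hφ_def
      let L : V →ₗ[F] (Fin s → F) := LinearMap.pi fun i => polarBilin Q (z i)
      have hL : m - s ≤ finrank F (LinearMap.ker L) := by
        have h3 := LinearMap.finrank_range_add_finrank_ker L
        have h4 : finrank F (LinearMap.range L) ≤ s := by
          have := Submodule.finrank_le (LinearMap.range L)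
          rwa [finrank_fin_fun] at this
        omega
      have hLp : ∀ v ∈ LinearMap.ker L, ∀ w ∈ Z, polar Q w v = 0 := by
        intro v hv w hw
        have h3 : ∀ i, polar Q (z i) v = 0 := fun i => congrFun (LinearMap.mem_ker.1 hv) i
        induction hw using Submodule.span_induction with
        | mem x hx =>
          obtain ⟨i, rfl⟩ := hx
          exact h3 i
        | zero => exact polar_zero_left _ _
        | add x y _ _ hx hy => rw [polar_add_left, hx, hy, add_zero]
        | smul c x _ hx => rw [polar_smul_left, hx, smul_zero]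
      let ψ : LinearMap.ker L →ₗ[F] Z := (φ.domRestrict (LinearMap.ker L)).codRestrict Z
        (fun v => hg.2.2 v.1 (hLp v.1 v.2))
      have h3 := LinearMap.finrank_range_add_finrank_ker ψ
      have h4 : finrank F (LinearMap.range ψ) ≤ s := by
        have := Submodule.finrank_le (LinearMap.range ψ)
        rwa [hZd] at this
      have h5 : finrank F (LinearMap.ker ψ) ≤ finrank F (LinearMap.ker φ) := by
        apply LinearMap.finrank_le_finrank_of_injective (f := ((LinearMap.ker L).subtype.comp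
          (LinearMap.ker ψ).subtype).codRestrict (LinearMap.ker φ) (fun v => by
            have h6 : ψ v.1 = 0 := v.2
            exact congrArg Subtype.val h6))
        intro a b hab
        have h6 : ((a : LinearMap.ker L) : V) = ((b : LinearMap.ker L) : V) :=
          congrArg (fun x : LinearMap.ker φ => (x : V)) hab
        exact Subtype.ext (Subtype.ext h6)
      have h6 := LinearMap.finrank_range_add_finrank_ker φ
      rw [hm] at h6
      omega

end Cfsg.Agent.H999.IFE

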